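import Cfsg.Agent.H838.KW.CrossDef
import Cfsg.Agent.S0205
import Cfsg.Agent.OddCyclic.T1SzComp
import Cfsg.Agent.ThreePrime.Main

/-!
# From one prime to the cross characteristic row
-/

set_option autoImplicit false

open Subgroup

namespace Cfsg.Agent.H838.KW

open Cfsg.Agent.H146.KW

universe u

theorem crossNo_of_two {r : ℕ} {G : Type u} [Group G] [Finite G] (h : NoP 2 r G) : CrossNo r G := by
  intro H hs hc _ hK hr
  have h2 := h H (hK 2) hr
  have : Group.IsSolvable H := Cfsg.Agent.S0205.result (Nat.odd_iff.2 (by omega))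
  exact hc (IsSimpleGroup.comm_iff_isSolvable.2 this |> fun h => ⟨⟨h⟩⟩)

theorem crossNo_of_five {G : Type u} [Group G] [Finite G] (h : NoP 5 3 G) : CrossNo 3 G := by
  intro H hs hc _ hK hr
  have : Fact (Nat.Prime 5) := ⟨by norm_num⟩
  refine h H (hK 5) hr ?_
  refine Cfsg.Agent.OddCyclic.T1SzComp.five_dvd (Cfsg.Agent.ThreePrime.Main.isoSuzuki ?_ hr)
  by_contra hcon
  push Not at hcon
  exact hc ⟨⟨hcon⟩⟩

end Cfsg.Agent.H838.KW
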